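import Cfsg.Agent.H12.CLSpec

/-! CL3 tower (S3621), job N1a: local multiples normalise. -/

set_option autoImplicit false
set_option linter.unusedSectionVars false

open Module H12.CL

namespace H85.CLN

variable {r : ℕ} {K V W : Type} [Field K] [AddCommGroup V] [Module K V] [AddCommGroup W]
  [Module (ZMod r) W] {S : Ex r K V W} {M N D : Submodule (ZMod r) W} {v₀ : V} {P : W → End K V}

theorem t_ne (a : W) {v : V} (hv : v ≠ 0) : S.t a v ≠ 0 := fun e => by
  obtain ⟨c, hc, h⟩ := S.t_mul (-a) a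
  have := LinearMap.congr_fun h v
  rw [neg_add_cancel, S.t_zero, End.mul_apply, e, map_zero] at this
  exact hv (by simpa [hc] using this.symm)

theorem cm_smul {w : W} {v : V} (h : S.Cm M v₀ w v) (c : K) : S.Cm M v₀ w (c • v) :=
  fun m hm d e => by rw [map_smul, h m hm d e, smul_comm]

theorem cm_add {w : W} {v v' : V} (h : S.Cm M v₀ w v) (h' : S.Cm M v₀ w v') :
    S.Cm M v₀ w (v + v') := fun m hm d e => by rw [map_add, h m hm d e, h' m hm d e, smul_add]

theorem cm_zero (w : W) : S.Cm M v₀ w 0 := fun m _ d _ => by simp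

theorem cm_t {w : W} {v : V} (h : S.Cm M v₀ w v) (a : W) : S.Cm M v₀ (w + a) (S.t a v) :=
  fun m hm d e => by
    have := LinearMap.congr_fun (S.comm m a) v
    rw [End.mul_apply, LinearMap.smul_apply, End.mul_apply, h m hm d e, map_smul] at this
    rw [this, smul_smul, map_add, S.χ_add]; congr 1; ring

theorem cm_base : S.Cm M v₀ 0 v₀ := fun m _ d e => by
  rw [map_zero, (S.χ_eq 0).2 rfl, one_mul, e]

theorem cm_congr (fr : Fr S.B S.Gd M N D) {w w' : W} {v : V} (h : S.Cm M v₀ w v)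
    (e : (M ⊔ D).mkQ w = (M ⊔ D).mkQ w') : S.Cm M v₀ w' v := fun m hm d e' => by
  obtain ⟨m', hm', d', hd', e1⟩ := Submodule.mem_sup.1 ((Submodule.Quotient.eq _).1 e)
  have : S.B m w = S.B m w' := by
    rw [← sub_eq_zero, ← map_sub, ← e1, map_add, fr.iM m hm m' hm', fr.oM m hm d' hd', add_zero]
  rw [h m hm d e', this]

variable (pt : S.Pt M D v₀ P)
include pt

theorem pself {w w' : W} {v : V} (h : S.Cm M v₀ w' v) (e : (M ⊔ D).mkQ w = (M ⊔ D).mkQ w') :
    P w v = v := pt.self w w' v h ((Submodule.Quotient.eq _).1 e)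

theorem pzero {w w' : W} {v : V} (h : S.Cm M v₀ w' v) (e : (M ⊔ D).mkQ w ≠ (M ⊔ D).mkQ w') :
    P w v = 0 := pt.zero w w' v h fun e' => e ((Submodule.Quotient.eq _).2 e')

theorem uniq {w w' : W} {v : V} (h : S.Cm M v₀ w v) (h' : S.Cm M v₀ w' v) (hv : v ≠ 0) :
    (M ⊔ D).mkQ w = (M ⊔ D).mkQ w' := by
  by_contra e
  exact hv ((pself pt h rfl).symm.trans (pzero pt h' e))

/-- a component of a sum occurs on the other side -/
theorem occ {a a' b b' : W} {x x' u u' : V} (hx : S.Cm M v₀ b x) (hx' : S.Cm M v₀ b' x')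
    (hu : S.Cm M v₀ a u) (hu' : S.Cm M v₀ a' u') (e : x + x' = u + u') (h0 : x ≠ 0)
    (hb : (M ⊔ D).mkQ b ≠ (M ⊔ D).mkQ b') :
    (M ⊔ D).mkQ b = (M ⊔ D).mkQ a ∨ (M ⊔ D).mkQ b = (M ⊔ D).mkQ a' := by
  by_contra hn
  rw [not_or] at hn
  have := congrArg (P b) e
  rw [map_add, map_add, pself pt hx rfl, pzero pt hx' hb, pzero pt hu hn.1, pzero pt hu' hn.2] at this
  exact h0 (by simpa using this)

theorem star (fr : Fr S.B S.Gd M N D) {y : End K V} (hl : S.Loc y) (inj : ∀ v, v ≠ 0 → y v ≠ 0)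
    {a a' b b' : W} {v v' : V} (h0 : v ≠ 0) (h0' : v' ≠ 0) (h : S.Cm M v₀ a v)
    (h' : S.Cm M v₀ a' v') (hb : S.Cm M v₀ b (y v)) (hb' : S.Cm M v₀ b' (y v')) :
    (M ⊔ D).mkQ b' - (M ⊔ D).mkQ b = (M ⊔ D).mkQ a' - (M ⊔ D).mkQ a ∨
      (M ⊔ D).mkQ b' - (M ⊔ D).mkQ b = (M ⊔ D).mkQ a - (M ⊔ D).mkQ a' := by
  obtain ⟨e, c, he⟩ := hl (v + v')
  have hu := cm_smul (cm_t h e) c
  have hu' := cm_smul (cm_t h' e) c
  have he' : y v + y v' = c • S.t e v + c • S.t e v' := by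
    rw [← map_add, he, map_add, smul_add]
  by_cases hbb : (M ⊔ D).mkQ b = (M ⊔ D).mkQ b'
  · left
    suffices (M ⊔ D).mkQ a = (M ⊔ D).mkQ a' by rw [hbb, this, sub_self, sub_self]
    by_contra haa
    have hs : v + v' ≠ 0 := fun e0 => by
      have := congrArg (P a) e0
      rw [map_add, pself pt h rfl, pzero pt h' haa, add_zero, map_zero] at this
      exact h0 this
    have hc : c ≠ 0 := fun e0 => inj _ hs (by rw [he, e0, zero_smul])
    have hy := cm_add hb (cm_congr fr hb' hbb.symm)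
    have hne : (M ⊔ D).mkQ (a + e) ≠ (M ⊔ D).mkQ (a' + e) := by simpa only [map_add, ne_eq, add_left_inj] using haa
    have e1 := occ pt hu hu' hy (cm_zero b) (by rw [add_zero, he']) (smul_ne_zero hc (t_ne e h0)) hne
    have e2 := occ pt hu' hu hy (cm_zero b) (by rw [add_zero, he', add_comm])
      (smul_ne_zero hc (t_ne e h0')) hne.symm
    exact hne ((e1.elim id id).trans (e2.elim id id).symm)
  · have e1 := occ pt hb hb' hu hu' he' (inj _ h0) hbb
    have e2 := occ pt hb' hb hu hu' (by rw [add_comm, he']) (inj _ h0') (Ne.symm hbb)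
    rw [map_add, map_add] at e1 e2
    rcases e1 with e1 | e1 <;> rcases e2 with e2 | e2
    · exact (hbb (e1.trans e2.symm)).elim
    · left; rw [e1, e2]; abel
    · right; rw [e1, e2]; abel
    · exact (hbb (e1.trans e2.symm)).elim

theorem shift [Fact r.Prime] (fr : Fr S.B S.Gd M N D) {y : End K V} (hl : S.Loc y) {c : K}
    (hc : c ≠ 0) (hy : y ^ r = c • 1) :
    ∃ b, ∀ a v, S.Cm M v₀ a v → S.Cm M v₀ (b + a) (y v) := by
  have hr : r.Prime := Fact.out
  have inj : ∀ v, v ≠ 0 → y v ≠ 0 := fun v hv e => by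
    have := LinearMap.congr_fun hy v
    obtain ⟨k, hk⟩ := Nat.exists_eq_succ_of_ne_zero hr.ne_zero
    rw [show y ^ r = y ^ k * y by rw [hk, pow_succ], End.mul_apply, e, map_zero] at this
    exact hv (by simpa [hc] using this.symm)
  have ex : ∀ a v, S.Cm M v₀ a v → ∃ b, S.Cm M v₀ b (y v) := fun a v h => by
    obtain ⟨e, d, he⟩ := hl v
    exact ⟨_, he ▸ cm_smul (cm_t h e) d⟩
  obtain ⟨b, hb⟩ := ex 0 v₀ cm_base
  have H1 : ∀ a v, S.Cm M v₀ a v → S.Cm M v₀ (b + a) (y v) ∨ S.Cm M v₀ (b - a) (y v) := by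
    intro a v h
    by_cases hv : v = 0
    · rw [hv, map_zero]; exact .inl (cm_zero _)
    obtain ⟨b', hb'⟩ := ex a v h
    refine (star pt fr hl inj pt.ne hv cm_base h hb hb').imp (fun e => cm_congr fr hb' ?_)
      fun e => cm_congr fr hb' ?_
    · rw [map_zero, sub_zero] at e; rw [map_add, ← e]; abel
    · rw [map_zero, zero_sub] at e; rw [map_sub, sub_eq_add_neg, ← e]; abel
  have nz : ∀ w v, ¬ S.Cm M v₀ w (y v) → v ≠ 0 := fun w v h e => h (by
    rw [e, map_zero]; exact cm_zero _)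
  refine ⟨b, fun a v h => ?_⟩
  by_contra hn
  have h1 := (H1 a v h).resolve_left hn
  have h2 : (M ⊔ D).mkQ a + (M ⊔ D).mkQ a ≠ 0 := fun e => hn (cm_congr fr h1 (by
    rw [map_sub, map_add, sub_eq_add_neg, neg_eq_of_add_eq_zero_left e]))
  have H2 : ∀ a' v', S.Cm M v₀ a' v' → S.Cm M v₀ (b - a') (y v') := by
    intro a' v' h'
    by_contra hn'
    have h1' := (H1 a' v' h').resolve_right hn'
    have h2' : (M ⊔ D).mkQ a' + (M ⊔ D).mkQ a' ≠ 0 := fun e => hn' (cm_congr fr h1' (by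
      rw [map_sub, map_add, sub_eq_add_neg, neg_eq_of_add_eq_zero_left e]))
    rcases star pt fr hl inj (nz _ _ hn) (nz _ _ hn') h h' h1 h1' with e | e <;>
      rw [map_add, map_sub] at e
    · exact h2 (by rw [← sub_eq_zero] at e; rw [← e]; abel)
    · exact h2' (by rw [← sub_eq_zero] at e; rw [← e]; abel)
  have H3 : ∀ k : ℕ, ∀ a' v', S.Cm M v₀ a' v' → S.Cm M v₀ (b - a') ((y ^ (2 * k + 1)) v') := by
    intro k
    induction k with
    | zero => simpa using H2
    | succ k ih =>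
      intro a' v' h'
      have := H2 _ _ (H2 _ _ (ih a' v' h'))
      rwa [sub_sub_cancel, ← End.mul_apply, ← End.mul_apply, ← sq, ← pow_add,
        show 2 + (2 * k + 1) = 2 * (k + 1) + 1 by ring] at this
  rcases hr.eq_two_or_odd' with rfl | ⟨k, hk⟩
  · exact h2 (by rw [← two_smul (ZMod 2), show (2 : ZMod 2) = 0 from rfl, zero_smul])
  have H4 : ∀ a' v', v' ≠ 0 → S.Cm M v₀ a' v' → (M ⊔ D).mkQ (b - a') = (M ⊔ D).mkQ a' := by
    intro a' v' hv h'
    have := H3 k a' v' h'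
    rw [← hk, hy] at this
    exact uniq pt this (cm_smul h' c) (smul_ne_zero hc hv)
  have e1 := H4 0 v₀ pt.ne cm_base
  have e2 := H4 a v (nz _ _ hn) h
  rw [sub_zero, map_zero] at e1
  rw [map_sub, e1, zero_sub] at e2
  exact h2 (by rw [← neg_add_cancel ((M ⊔ D).mkQ a), e2])

omit pt in
theorem jobN1a : JobN1a := by
  intro r _ K V W _ _ _ _ _ _ _ _ _ _ S ty M N D v₀ P fr pt y hl ⟨c, hc, hy⟩ m hm
  obtain ⟨b, hb⟩ := shift pt fr hl hc hy
  obtain ⟨d, hd⟩ := (pt.st m).2 hm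
  refine ⟨-S.B m b, sub_eq_zero.1 (pt.ext _ fun w v h => ?_)⟩
  rw [LinearMap.sub_apply, LinearMap.smul_apply, End.mul_apply, End.mul_apply, h m hm d hd,
    hb w v h m hm d hd, map_smul, smul_smul, ← mul_assoc, ← S.χ_add, map_add, neg_add_cancel_left,
    sub_self]

end H85.CLN
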