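import Cfsg.Agent.Base
import Cfsg.Agent.H84.Inv
import Cfsg.Agent.H86.Small

open scoped commutatorElement

namespace H85

/-- A non-abelian 2-group with a unique involution is generalized quaternion (with generators). -/
theorem exists_GQ_top {G : Type*} [Group G] [Finite G] (h2 : IsPGroup 2 G)
    (hna : ¬ IsMulCommutative G) (hu : ∃! x : G, orderOf x = 2) :
    ∃ (m : ℕ) (a b : G), H86.GQ ⊤ (2 ^ (m + 1)) a b := by
  obtain ⟨z, hz, hzu⟩ := hu
  have h := H84.isCyclic_or_quaternion_of_unique_involution (S := (⊤ : Subgroup G))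
    (h2.to_subgroup ⊤) (fun a _ b _ ha hb => (hzu a ha).trans (hzu b hb).symm)
  rcases h with h | ⟨m, ⟨e⟩⟩
  · exfalso
    apply hna
    have : IsCyclic G := isCyclic_of_surjective (Subgroup.topEquiv : (⊤ : Subgroup G) ≃* G)
      (Subgroup.topEquiv).surjective
    exact ⟨⟨fun a b => (IsCyclic.commGroup (α := G)).mul_comm a b⟩⟩
  · obtain ⟨a, b, h⟩ := H86.exists_GQ e
    exact ⟨m, a, b, h⟩

/-- Elements of a central extension of a generalized quaternion group. -/
theorem GQ_lift_mem {S : Type*} [Group S] {N : Subgroup S} [N.Normal] {n : ℕ} {α β : S}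
    (h : H86.GQ ⊤ n (QuotientGroup.mk α : S ⧸ N) (QuotientGroup.mk β)) (g : S) :
    ∃ i : ℤ, ∃ d ∈ N, g = α ^ i * d ∨ g = β * α ^ i * d := by
  obtain ⟨i, hi | hi⟩ := (h.mem (QuotientGroup.mk g)).1 (Subgroup.mem_top _)
  · refine ⟨i, (α ^ i)⁻¹ * g, ?_, Or.inl (by group)⟩
    rw [← QuotientGroup.eq, hi]; simp
  · refine ⟨i, (β * α ^ i)⁻¹ * g, ?_, Or.inr (by group)⟩
    rw [← QuotientGroup.eq, hi]; simp

/-- The derived subgroup of a central extension of a generalized quaternion group is cyclic. -/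
theorem commutator_le_zpowers_of_GQ {S : Type*} [Group S] {N : Subgroup S} [N.Normal]
    (hN : N ≤ Subgroup.center S) {n : ℕ} {α β : S}
    (h : H86.GQ ⊤ n (QuotientGroup.mk α : S ⧸ N) (QuotientGroup.mk β)) :
    commutator S ≤ Subgroup.zpowers (β * α * β⁻¹ * α⁻¹) := by
  set c := β * α * β⁻¹ * α⁻¹ with hc
  have hcen : ∀ d ∈ N, ∀ g : S, g * d = d * g := fun d hd g => Subgroup.mem_center_iff.1 (hN hd) g
  have h1 : α * (β * α * β⁻¹) ∈ N := by
    rw [← QuotientGroup.eq_one_iff]
    have := h.rel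
    simp only [QuotientGroup.mk_mul, QuotientGroup.mk_inv, this, mul_inv_cancel]
  have h2 : (α ^ n)⁻¹ * (β * β) ∈ N := by
    rw [← QuotientGroup.eq]
    simp only [QuotientGroup.mk_mul, QuotientGroup.mk_pow, h.bb]
  have hαc : α * c = c * α := by
    have e1 := hcen _ h1 α⁻¹
    have : c = α⁻¹ * (α * (β * α * β⁻¹)) * α⁻¹ := by rw [hc]; group
    have e2 := hcen _ h1 α
    set d := α * (β * α * β⁻¹)
    rw [this]
    calc α * (α⁻¹ * d * α⁻¹) = d * α⁻¹ := by group
      _ = α⁻¹ * d := e1.symm
      _ = α⁻¹ * d * α⁻¹ * α := by group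
  have hββ : β * β * α = α * (β * β) := by
    have e := hcen _ h2 α
    obtain ⟨d, hd⟩ : ∃ d, d = (α ^ n)⁻¹ * (β * β) := ⟨_, rfl⟩
    rw [← hd] at e
    have : β * β = α ^ n * d := by rw [hd]; group
    rw [this, mul_assoc, ← e, ← mul_assoc, ← mul_assoc, (Commute.refl α).pow_left n]
  have hβc : β * c * β⁻¹ = c⁻¹ := by
    have e1 : β * α * β⁻¹ = c * α := by rw [hc]; group
    have e2 : β * (c * α) * β⁻¹ = α := by
      rw [← e1]
      calc β * (β * α * β⁻¹) * β⁻¹ = (β * β * α) * (β * β)⁻¹ := by group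
        _ = α := by rw [hββ]; group
    have e3 : β * c * β⁻¹ * (c * α) = α := by
      rw [← e1]; rw [← e2]
      conv_lhs => rw [e2]
      group
    calc β * c * β⁻¹ = (β * c * β⁻¹ * (c * α)) * α⁻¹ * c⁻¹ := by group
      _ = c⁻¹ := by rw [e3]; group
  have hnormα : α ∈ Subgroup.normalizer (Subgroup.zpowers c : Set S) := by
    apply Subgroup.centralizer_le_normalizer
    rw [Subgroup.mem_centralizer_iff]
    rintro y ⟨k, rfl⟩
    exact ((Commute.zpow_left (show Commute c α from hαc.symm) k)).eq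
  have hnormβ : β ∈ Subgroup.normalizer (Subgroup.zpowers c : Set S) := by
    rw [Subgroup.mem_normalizer_iff]
    intro y
    constructor
    · rintro ⟨k, rfl⟩
      refine ⟨-k, ?_⟩
      simp only
      rw [← conj_zpow, hβc, inv_zpow']
    · rintro ⟨k, hk⟩
      refine ⟨-k, ?_⟩
      simp only at hk ⊢
      have : β * c ^ (-k) * β⁻¹ = c ^ k := by rw [← conj_zpow, hβc, inv_zpow', neg_neg]
      rw [← this] at hk
      have := mul_left_cancel (mul_right_cancel hk)
      exact this
  have hnorm : (Subgroup.zpowers c).Normal := by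
    rw [← Subgroup.normalizer_eq_top_iff, eq_top_iff]
    intro g _
    obtain ⟨i, d, hd, hg | hg⟩ := GQ_lift_mem h g
    all_goals
      have hdn : d ∈ Subgroup.normalizer (Subgroup.zpowers c : Set S) := by
        apply Subgroup.centralizer_le_normalizer
        rw [Subgroup.mem_centralizer_iff]
        intro y _
        exact hcen d hd y
      rw [hg]
    · exact Subgroup.mul_mem _ (Subgroup.zpow_mem _ hnormα i) hdn
    · exact Subgroup.mul_mem _ (Subgroup.mul_mem _ hnormβ (Subgroup.zpow_mem _ hnormα i)) hdn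
  set π := QuotientGroup.mk' (Subgroup.zpowers c)
  have hab : Commute (π β) (π α) := by
    have : π (β * α * β⁻¹ * α⁻¹) = 1 := (QuotientGroup.eq_one_iff c).2 (Subgroup.mem_zpowers c)
    simp only [map_mul, map_inv] at this
    show π β * π α = π α * π β
    calc π β * π α = (π β * π α * (π β)⁻¹ * (π α)⁻¹) * (π α * π β) := by group
      _ = _ := by rw [this, one_mul]
  have key : ∀ g : S, Commute (π g) (π α) ∧ Commute (π g) (π β) := by
    intro g
    obtain ⟨i, d, hd, hg | hg⟩ := GQ_lift_mem h g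
    all_goals
      have hd1 : ∀ y, Commute (π d) (π y) := fun y => by
        show π d * π y = π y * π d
        rw [← map_mul, ← map_mul, hcen d hd y]
      rw [hg]
      simp only [map_mul, map_zpow]
    · exact ⟨((Commute.refl _).zpow_left i).mul_left (hd1 _), (hab.symm.zpow_left i).mul_left (hd1 _)⟩
    · exact ⟨(hab.mul_left ((Commute.refl _).zpow_left i)).mul_left (hd1 _),
        ((Commute.refl _).mul_left (hab.symm.zpow_left i)).mul_left (hd1 _)⟩
  have key2 : ∀ g k : S, Commute (π g) (π k) := by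
    intro g k
    obtain ⟨i, d, hd, hg | hg⟩ := GQ_lift_mem h k
    all_goals
      have hd1 : Commute (π g) (π d) := by
        show π g * π d = π d * π g
        rw [← map_mul, ← map_mul, hcen d hd g]
      rw [hg]
      simp only [map_mul, map_zpow]
    · exact ((key g).1.zpow_right i).mul_right hd1
    · exact ((key g).2.mul_right ((key g).1.zpow_right i)).mul_right hd1
  rw [commutator_def, Subgroup.commutator_le]
  intro g _ k _
  rw [← QuotientGroup.eq_one_iff]
  show π ⁅g, k⁆ = 1
  rw [map_commutatorElement, commutatorElement_eq_one_iff_commute]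
  exact key2 g k

end H85
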