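import Cfsg.Agent.H68.OuSpec

/-! Tower ORE4 (S2446), jobs D (weighted cycles) and F (transport to `SU`). -/

set_option autoImplicit false
set_option linter.unusedSectionVars false

namespace H85.OuDF

open Polynomial Module H53 H60.Ore H68.Ou Matrix
open H59 (stdForm stdForm_apply form_smul_left form_smul_right)

universe u

variable {F : Type u} [Field F] {σ : F →+* F} {k : ℕ}

/-- weighted cycle -/
def wc (w : ZMod (k + 1) → F) : End F (ZMod (k + 1) → F) where
  toFun v i := w i * v (i - 1)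
  map_add' v v' := by ext i; simp [mul_add]
  map_smul' c v := by ext i; simp [mul_left_comm]

theorem wc_apply (w v : ZMod (k + 1) → F) (i : ZMod (k + 1)) : wc w v i = w i * v (i - 1) := rfl

theorem inv_wc {w : ZMod (k + 1) → F} (h : ∀ i, Mu σ (w i)) : Inv (stdForm σ _) (wc w) := by
  intro x y
  rw [stdForm_apply, stdForm_apply, ← Equiv.sum_comp (Equiv.subRight 1) fun i => σ (x i) * y i]
  refine Finset.sum_congr rfl fun i _ => ?_
  rw [wc_apply, wc_apply, map_mul, mul_mul_mul_comm, mul_comm (σ (w i)), h i, one_mul]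
  rfl

theorem wc_pow (w : ZMod (k + 1) → F) (j : ℕ) : (wc w ^ j) (Pi.single 0 1) =
    (∏ i ∈ Finset.range j, w ((i : ZMod (k + 1)) + 1)) • Pi.single (j : ZMod (k + 1)) 1 := by
  induction j with
  | zero => simp
  | succ j ih =>
    rw [pow_succ', End.mul_apply, ih, map_smul, Finset.prod_range_succ, mul_smul]
    congr 1
    ext i
    by_cases e : i = (j : ZMod (k + 1)) + 1
    · simp [wc_apply, e]
    · have e' : i - 1 ≠ (j : ZMod (k + 1)) := fun e' => e (by rw [← e', sub_add_cancel])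
      simp [wc_apply, e, e']

theorem ed_wc {w : ZMod (k + 1) → F} (h : ∀ i, w i ≠ 0) :
    ed (wc w) = edc (X ^ (k + 1) - C (∏ i, w i)) := by
  have hp : (X ^ (k + 1) - C (∏ i, w i) : F[X]) ≠ 0 := X_pow_sub_C_ne_zero k.succ_pos _
  refine ed_eq_edc hp (sim_cyc_of_vec (v := Pi.single 0 1) (fun v => ?_) hp ?_ ?_)
  · let T : F[X] →ₗ[F] (ZMod (k + 1) → F) :=
      LinearMap.applyₗ (Pi.single 0 1) ∘ₗ (aeval (wc w)).toLinearMap
    have : (⊤ : Submodule F _) ≤ LinearMap.range T := by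
      rw [← (Pi.basisFun F (ZMod (k + 1))).span_eq, Submodule.span_le]
      rintro _ ⟨i, rfl⟩
      have hc : ∏ j ∈ Finset.range i.val, w ((j : ZMod (k + 1)) + 1) ≠ 0 :=
        Finset.prod_ne_zero_iff.2 fun _ _ => h _
      refine ⟨(∏ j ∈ Finset.range i.val, w ((j : ZMod (k + 1)) + 1))⁻¹ • X ^ i.val, ?_⟩
      simp [T, wc_pow, smul_smul, inv_mul_cancel₀ hc]
    exact this (Submodule.mem_top (x := v))
  · have e : ∏ i ∈ Finset.range (k + 1), w ((i : ZMod (k + 1)) + 1) = ∏ i, w i := by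
      rw [Finset.prod_range, ← Equiv.prod_comp (Equiv.addRight 1) w]
      exact Finset.prod_congr rfl fun i _ =>
        congrArg (fun x => w (x + 1)) (ZMod.natCast_zmod_val (n := k + 1) i)
    rw [map_sub, map_pow, aeval_X, aeval_C, LinearMap.sub_apply, wc_pow, e, ZMod.natCast_self]
    simp [Algebra.algebraMap_eq_smul_one]
  · rw [natDegree_X_pow_sub_C]; simp

theorem ed_smul_one (a : F) : ed (a • 1 : End F F) = {X - C a} := by
  rw [← edc_lin]
  refine ed_eq_edc (X_sub_C_ne_zero a) (sim_cyc_of_vec (v := 1) (fun v => ⟨C v, ?_⟩)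
    (X_sub_C_ne_zero a) ?_ (by simp)) <;> simp [Algebra.algebraMap_eq_smul_one]

theorem tri_wc (c : Cj σ) (a : ZMod (k + 1) → F) {d : F} (ha : ∀ i, Mu σ (a i)) (hd : Mu σ d) :
    Tri σ ((Finset.univ.val.map a).map fun a => X - C a) (edc (X ^ (k + 1) - C (d * ∏ i, a i)))
      (edc (X ^ (k + 1) - C d)) := by
  let u : ZMod (k + 1) → F := Function.update 1 0 d
  have hu : ∀ i, Mu σ (u i) := fun i => by
    by_cases e : i = 0
    · simpa [u, e] using hd
    · simpa [u, e] using mu_one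
  have pu : ∏ i, u i = d := by simp [u, Finset.prod_update_of_mem]
  refine ⟨ZMod (k + 1) → F, _, _, inferInstance, stdForm σ _, piEnd fun i => a i • 1, wc u,
    isSF_of_isHerm (H59.isHerm_stdForm c.ne c.inv _), fun x y => ?_, inv_wc hu, ?_, ?_, ?_⟩
  · rw [stdForm_apply, stdForm_apply]
    refine Finset.sum_congr rfl fun i _ => ?_
    simp only [piEnd_apply, LinearMap.smul_apply, End.one_apply, smul_eq_mul, map_mul]
    rw [mul_mul_mul_comm, mul_comm (σ (a i)), ha i, one_mul]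
  · rw [ed_piEnd, Multiset.map_map]
    simp only [ed_smul_one, Finset.sum, Function.comp_def]
    conv_rhs => rw [← Multiset.sum_map_singleton (Multiset.map _ _), Multiset.map_map]
    rfl
  · rw [show (piEnd fun i => a i • 1) * wc u = wc fun i => a i * u i by
      ext v i; simp [wc_apply, mul_assoc],
      ed_wc fun i => ((ha i).mul (hu i)).ne]
    rw [Finset.prod_mul_distrib, pu, mul_comm]
  · rw [ed_wc fun i => (hu i).ne, pu]

theorem jobD : JobD.{u} := by
  intro F _ _ σ c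
  refine ⟨fun l d hl ha hd => ?_, fun k hk => ?_⟩
  · induction l using Quotient.inductionOn with | _ L => ?_
    obtain ⟨n, a, rfl⟩ : ∃ (n : ℕ) (a : Fin n → F), L = List.ofFn a := ⟨_, _, L.ofFn_get.symm⟩
    cases n with
    | zero => simp at hl
    | succ k =>
      have := tri_wc (k := k) c a (fun i => ha _ (List.mem_ofFn.2 ⟨i, rfl⟩)) hd
      have e1 : (Finset.univ.val.map a : Multiset F) = (List.ofFn a : Multiset F) := Fin.univ_val_map a
      simp only [Multiset.quot_mk_to_coe, Multiset.coe_card, List.length_ofFn, ← e1]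
      rw [e1, Multiset.coe_card, List.length_ofFn, ← e1]
      exact this
  · obtain ⟨p, hp⟩ := CharP.exists F
    have pp : p.Prime := CharP.char_is_prime F p
    haveI := Fact.mk pp
    obtain ⟨e, k', hk', rfl⟩ := Nat.exists_eq_pow_mul_and_not_dvd (by omega : k ≠ 0) p pp.ne_one
    have inj := (iterateFrobenius F p e).injective
    have sj := Finite.surjective_of_injective inj
    obtain ⟨d, hd⟩ := sj ((-1) ^ (p ^ e * k' + 1))
    rw [iterateFrobenius_def] at hd
    have d0 : d ≠ 0 := fun e0 => by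
      rw [e0, zero_pow (pow_pos pp.pos e).ne'] at hd
      exact pow_ne_zero _ (neg_ne_zero.2 one_ne_zero) hd.symm
    have k0 : k' ≠ 0 := fun e0 => hk' (by simp [e0])
    have sep := separable_X_pow_sub_C d ((CharP.cast_eq_zero_iff F p k').not.2 hk') d0
    obtain ⟨φ, h1, h2, ψ, h3⟩ := exists_monic_irreducible_factor (X ^ k' - C d : F[X])
      (not_isUnit_of_natDegree_pos _ (by rw [natDegree_X_pow_sub_C]; omega))
    have ψ0 : ψ ≠ 0 := fun e0 => X_pow_sub_C_ne_zero (Nat.pos_of_ne_zero k0) d (by rw [h3, e0, mul_zero])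
    refine ⟨φ, p ^ e, h1, h2, ?_, fun x hx => ?_⟩
    · rw [← hd, mul_comm, pow_mul, C_pow, ← sub_pow_char_pow, h3, mul_pow,
        edc_mul (pow_ne_zero _ h2.ne_zero) (pow_ne_zero _ ψ0) (h3 ▸ sep).isCoprime.pow,
        edc_pp ⟨φ, _, h1, h2, pow_pos pp.pos e, rfl⟩]
      simp
    · obtain ⟨y, rfl⟩ := sj x
      refine ⟨y, inj ?_, rfl⟩
      rw [map_mul, map_one, ← hx, iterateFrobenius_def, iterateFrobenius_def, map_pow]

theorem jobF : JobF.{u} := by
  intro F _ _ n q hF g ⟨t, ⟨V, _, _, _, B, g', y, hB, hg, hy, e1, e2, e3⟩, ⟨φ, k, h1, h2, h3, h4⟩,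
    c, hc, h5⟩
  let G := suToGU n F q g
  obtain ⟨e, he, he'⟩ := iso_of_sim hB (isSF_uForm hF n) hg (inv_GU hF G) (.inl (H59.frob_ne_id hF))
    (sim_of_ed_eq e1)
  have i1 := exists_iso_of_isometry e he' y
  have i2 := i1.symm.inv hy
  obtain ⟨Y, hY⟩ := exists_gl_toLin'_eq (i2.isUnit (isSF_uForm hF n))
  let Y' : Cfsg.GU n F q := ⟨Y, (mem_GU_iff_inv hF Y).2 (hY ▸ i2)⟩
  have m1 : med ((Y' : GL (Fin n) F) : Matrix (Fin n) (Fin n) F) = t := by
    rw [← e3, i1.sim.ed_eq, ← hY]; rfl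
  have m2 : med ((G * Y' : Cfsg.GU n F q) : GL (Fin n) F).1 = t := by
    rw [← e2]
    refine (Sim.ed_eq ⟨e, fun v => ?_⟩).symm
    rw [End.mul_apply, he]
    change _ = toLin' ((G : GL (Fin n) F).1 * Y.1) (e v)
    rw [toLin'_mul, LinearMap.comp_apply, hY]
    simp [LinearEquiv.conj_apply]
  obtain ⟨h, hh⟩ := isConj_iff.1 ((isConj_GU_iff hF Y' (G * Y')).2 (m1.trans m2.symm))
  obtain ⟨c', k1, k2⟩ := h4 _ ((mem_Mu hF).1 (guDet hF n h)⁻¹.2)
  obtain ⟨w, w1, w2⟩ := pow_mem_map_guDet hF Y' h1 h2 (m1 ▸ h3)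
    ⟨Units.mk0 c' k1.ne, (mem_Mu hF).2 k1⟩
  have w3 : guDet hF n w = (guDet hF n h)⁻¹ := by
    rw [w2]; ext; simpa using k2
  have i3 : Inv (H59.uForm hF n) (c • 1) := fun x y => by
    simp only [LinearMap.smul_apply, End.one_apply, form_smul_left, form_smul_right]
    rw [← mul_assoc, hc, one_mul]
  obtain ⟨Z, hZ⟩ := exists_gl_toLin'_eq (i3.isUnit (isSF_uForm hF n))
  let Z' : Cfsg.GU n F q := ⟨Z, (mem_GU_iff_inv hF Z).2 (hZ ▸ i3)⟩
  have z1 : (Z : Matrix (Fin n) (Fin n) F) = c • 1 := toLin'.injective (by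
    rw [hZ, map_smul, toLin'_one]; rfl)
  have z2 : ∀ x : Cfsg.GU n F q, x * Z' = Z' * x := fun x => by
    ext1; ext1; simp [Z', z1]
  obtain ⟨a, ha⟩ := (mem_range_suToGU hF (h * w)).2 (by rw [map_mul, w3, mul_inv_cancel])
  obtain ⟨b, hb⟩ := (mem_range_suToGU hF (Z' * Y')).2 (by
    ext
    rw [coe_guDet]
    change (Z.1 * Y.1).det = 1
    rw [det_mul, z1, det_smul, det_one, mul_one, ← h5, ← m1, ← LinearMap.det_toLin' Y.1, ← dm_ed]
    congr 2
    exact (sum_natDegree_med _).symm)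
  refine ⟨a, b, suToGU_injective ?_⟩
  have w4 : w * Y' * w⁻¹ = Y' := by
    rw [(Subgroup.mem_centralizer_singleton_iff.1 w1), mul_inv_cancel_right]
  rw [map_mul, map_mul, map_mul, map_inv, map_inv, ha, hb, ← mul_assoc (h * w), z2 (h * w),
    show Z' * (h * w) * Y' * (h * w)⁻¹ * (Z' * Y')⁻¹ =
      Z' * (h * (w * Y' * w⁻¹) * h⁻¹ * Y'⁻¹) * Z'⁻¹ by group, w4, hh, ← z2]
  simp [G]

end H85.OuDF
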